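import Groth.Agent.Dual.H324.CanonSys
import Groth.Agent.Dual.H336.CanSysDef

/-!
# The canonical system of upper shrieks exists (`CanSys h W`)
-/

set_option autoImplicit false

universe u

open CategoryTheory CategoryTheory.Limits AlgebraicGeometry

attribute [local instance] HasDerivedCategory.standard

namespace Groth.Agent.Dual.H324.CanSysMain

open Groth.Agent.Dcoh.DerSch Groth.Agent.Ega1.ADualUniv Groth.Agent.Dual.H336.CanSysDef

attribute [local instance] hasRpush

variable {S X : Scheme.{u}}

/-- Existence of the canonical system. -/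
theorem canSys [IsNoetherian S] (h : X ⟶ S) [LocallyOfFiniteType h] [QuasiCompact h]
    (W : DCoh.DQCoh S) (n : ℤ) (hn : DerivedCategory.IsGE W.obj n) : CanSys h W := by
  have hXn : IsNoetherian X := Groth.Agent.LoccohB.AdStruct.isNoetherian_of_finiteType h
  obtain ⟨K, m, h1, h2, h3, h4⟩ := CanonSys.exists_canonical W.obj W.property n hn h
  refine ⟨K, m, h1, h2, h3, fun V => ?_⟩
  have hV : IsSeparated (V.1.ι ≫ h) := V.2
  obtain ⟨P, k, p, h5, h6, h7, h8⟩ := S0384.result (V.1.ι ≫ h)
  have := Groth.Agent.LoccohB.AdStruct.isNoetherian_of_finiteType p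
  have hf : DCoh.RpushPreservesQCoh p := fun N hN => S0998.result p N hN
  have := S1766.result P S p hf
  let adj := Adjunction.ofIsLeftAdjoint (DCoh.RpushQ p hf)
  refine ⟨⟨P, k, p, h5, h7, h8⟩, inferInstance, hf, (DCoh.RpushQ p hf).rightAdjoint, adj, ?_⟩
  exact h4 V P k p h8 _ _ (isUniv_of_adj (h := hf) adj W)

end Groth.Agent.Dual.H324.CanSysMain
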