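import Groth.Agent.Dual.H324.PushHom

/-!
# Canonical arrows between restrictions of universal traces

`Ch 𝒲 Q`: a chart = object `A` with a universal trace `t : PH A 𝒲` and a restriction
`c : (V, K) ⟶ A`.  Morphisms of charts, the induced arrows `eps G : (V', K') ⟶ (V, K)` for good
morphisms `G`, functoriality, and the canonical arrows `exists_can` (calculus of roofs).
-/

set_option autoImplicit false

universe v₁ u₁ v₂ u₂

open CategoryTheory

namespace Groth.Agent.Dual.H324.Canon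

open Groth.Agent.PerfB.BCTot Groth.Agent.PerfB.BCTot.Tot Groth.Agent.Dual.H324.PushHom

variable {𝒮 : Type u₁} [Category.{v₁} 𝒮] {D : 𝒮 → Type u₂} [∀ X, Category.{v₂} (D X)]
  {P : PullData D}

lemma app_eq {A' A : Tot P} {s s' : PH A' A} (h : s = s') {B : Tot P} (b : A.base ⟶ B.base)
    (x : A' ⟶ B) (hx : x.base = s.base ≫ b) (hx' : x.base = s'.base ≫ b) :
    s.app b x hx = s'.app b x hx' := by
  subst h
  rfl

/-- If `s.comp t = t'` with `t`, `t'` universal then `s` is universal. -/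
theorem isTr_of_comp {Q : ∀ X : 𝒮, D X → Prop} {A' A 𝒲 : Tot P} {t' : PH A' 𝒲} {t : PH A 𝒲}
    {s : PH A' A} (h : s.comp t = t') (ht' : IsTr Q t') (ht : IsTr Q t) : IsTr Q s := by
  intro A'' hA'' g'' u hu
  obtain ⟨r, hr, hr', hr''⟩ := ht' A'' hA'' g'' (u.comp t) (by
    rw [PH.comp_base, hu, ← h, PH.comp_base, Category.assoc])
  refine ⟨r, hr, ?_, ?_⟩
  · refine ht.uniq hA'' ?_ ?_
    · rw [PH.comp_base, hr, hu]
    · rw [PH.comp_assoc, h, hr']
  · intro s' hs' hs''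
    refine hr'' s' hs' ?_
    rw [← h, ← PH.comp_assoc, hs'']

/-- The bijection in the fibres attached to a universal trace. -/
theorem bijective_of_isTr {Q : ∀ X : 𝒮, D X → Prop} {A' A : Tot P} {s : PH A' A} (hs : IsTr Q s)
    {R : D A'.base ⥤ D A.base} (adj : P.pull s.base ⊣ R) (φ : R.obj A'.fib ⟶ A.fib)
    (hx : (cocartLift s.base adj A'.fib).base = s.base ≫ 𝟙 A.base)
    (hφ : s.app (B := ⟨A.base, R.obj A'.fib⟩) (𝟙 A.base) (cocartLift s.base adj A'.fib) hx = ver φ)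
    (M : D A'.base) (hM : Q A'.base M) :
    Function.Bijective (fun ψ : M ⟶ A'.fib => R.map ψ ≫ φ) := by
  -- push morphisms over the identity
  have hid : IsCocart (𝟙 (⟨A'.base, M⟩ : Tot P)) := isCocart_of_isIso _
  let r (ψ : M ⟶ A'.fib) : PH (⟨A'.base, M⟩ : Tot P) A' :=
    PH.ofCocart (A := A') (𝟙 (⟨A'.base, M⟩ : Tot P)) hid ψ
  have hr (ψ : M ⟶ A'.fib) {B : Tot P} (y : (⟨A'.base, M⟩ : Tot P) ⟶ B) (b : A'.base ⟶ B.base)
      (hb : b = y.base) (hx) : (r ψ).app b y hx = ver ψ ≫ y := by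
    have h1 := PH.ofCocart_app (A := A') (𝟙 (⟨A'.base, M⟩ : Tot P)) hid ψ y b hb (by
      rw [Category.id_comp]; exact hx)
    rw [← h1]
    exact (r ψ).app_congr rfl (Category.id_comp y).symm _ _
  let n := cocartLift (P := P) s.base adj M
  have hn : IsCocart n := isCocart_cocartLift _ _ _
  have hnb : n.base = s.base := rfl
  have key (ψ : M ⟶ A'.fib) (hy : n.base = ((r ψ).comp s).base ≫ 𝟙 A.base) :
      ((r ψ).comp s).app (B := ⟨A.base, R.obj M⟩) (𝟙 A.base) n hy = ver (R.map ψ ≫ φ) := by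
    have e1 : (r ψ).app (B := ⟨A.base, R.obj M⟩) (s.base ≫ 𝟙 A.base) n (by
        rw [hy, PH.comp_base, Category.assoc]) = cocartLift (P := P) s.base adj A'.fib ≫
          (ver (R.map ψ) : (⟨A.base, R.obj A'.fib⟩ : Tot P) ⟶ ⟨A.base, R.obj M⟩) := by
      rw [hr ψ n (s.base ≫ 𝟙 A.base) (by rw [hnb, Category.comp_id])]
      exact ver_comp_cocartLift s.base adj ψ
    have hxb : (cocartLift (P := P) s.base adj A'.fib ≫
          (ver (R.map ψ) : (⟨A.base, R.obj A'.fib⟩ : Tot P) ⟶ ⟨A.base, R.obj M⟩)).base =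
          s.base ≫ 𝟙 A.base := rfl
    have e2 : ((r ψ).comp s).app (B := ⟨A.base, R.obj M⟩) (𝟙 A.base) n hy =
        s.app (B := ⟨A.base, R.obj M⟩) (𝟙 A.base) (cocartLift (P := P) s.base adj A'.fib ≫
          (ver (R.map ψ) : (⟨A.base, R.obj A'.fib⟩ : Tot P) ⟶ ⟨A.base, R.obj M⟩)) hxb :=
      s.app_congr rfl e1 ((r ψ).app_base _ _ _) _
    refine e2.trans ((s.nat (B := ⟨A.base, R.obj A'.fib⟩) (𝟙 A.base) _ hx
      (ver (R.map ψ) : (⟨A.base, R.obj A'.fib⟩ : Tot P) ⟶ ⟨A.base, R.obj M⟩) _ _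
      (Category.comp_id _).symm).trans ?_)
    rw [hφ]
    exact ver_comp_ver _ _
  have hrb (ψ : M ⟶ A'.fib) : ((r ψ).comp s).base = s.base := Category.id_comp _
  have hnx (ψ : M ⟶ A'.fib) : n.base = ((r ψ).comp s).base ≫ 𝟙 A.base := by
    rw [hrb, Category.comp_id]
    rfl
  constructor
  · intro ψ₁ ψ₂ h
    dsimp only at h
    have h1 : (r ψ₁).comp s = (r ψ₂).comp s := by
      refine PH.ext_of_cocart ((hrb ψ₁).trans (hrb ψ₂).symm) n hn (hrb ψ₁).symm ?_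
      intro hx₁ hx₂
      rw [key ψ₁ hx₁, key ψ₂ hx₂, h]
    have h2 : r ψ₁ = r ψ₂ := hs.uniq hM rfl h1
    have h3 := hr ψ₁ (𝟙 (⟨A'.base, M⟩ : Tot P)) (𝟙 A'.base) rfl (Category.id_comp _).symm
    have h4 := hr ψ₂ (𝟙 (⟨A'.base, M⟩ : Tot P)) (𝟙 A'.base) rfl (Category.id_comp _).symm
    rw [Category.comp_id] at h3 h4
    exact ver_injective (P := P) (h3.symm.trans ((app_eq h2 _ _ _ _).trans h4))
  · intro χ
    have hχ : IsCocart n := hn
    let u : PH (⟨A'.base, M⟩ : Tot P) A := PH.ofCocart (A := A) n hn χ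
    obtain ⟨q, hq, hq', -⟩ := hs ⟨A'.base, M⟩ hM (𝟙 A'.base) u (Category.id_comp _).symm
    obtain ⟨ψ, hψ⟩ := q.exists_ver (𝟙 (⟨A'.base, M⟩ : Tot P)) (by
      rw [hq]; exact (Category.comp_id _).symm)
    have hqr : q = r ψ := by
      refine PH.ext_of_cocart hq (𝟙 (⟨A'.base, M⟩ : Tot P)) hid hq.symm ?_
      intro hx₁ hx₂
      rw [hψ, hr ψ (𝟙 (⟨A'.base, M⟩ : Tot P)) (𝟙 A'.base) rfl hx₂]
      exact (Category.comp_id _).symm
    refine ⟨ψ, ?_⟩
    have hq'' : (r ψ).comp s = u := by rw [← hqr]; exact hq'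
    have h5 := key ψ (hnx ψ)
    have h6 : u.app (B := ⟨A.base, R.obj M⟩) (𝟙 A.base) n (Category.comp_id _).symm = ver χ := by
      have h7 := PH.ofCocart_app (A := A) n hn χ (𝟙 (⟨A.base, R.obj M⟩ : Tot P)) (𝟙 A.base) rfl
        (by rw [Category.comp_id]; exact (Category.comp_id _).symm)
      refine Eq.trans ?_ (h7.trans (Category.comp_id _))
      exact u.app_congr rfl (Category.comp_id n).symm _ _
    have h8 : ((r ψ).comp s).app (B := ⟨A.base, R.obj M⟩) (𝟙 A.base) n (hnx ψ) =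
        u.app (B := ⟨A.base, R.obj M⟩) (𝟙 A.base) n (Category.comp_id _).symm :=
      app_eq hq'' _ _ _ _
    rw [h5, h6] at h8
    exact ver_injective (P := P) h8

/-- Charts. -/
structure Ch (𝒲 : Tot P) (Q : ∀ X : 𝒮, D X → Prop) where
  V : 𝒮
  A : Tot P
  t : PH A 𝒲
  tr : IsTr Q t
  q : Q A.base A.fib
  K : D V
  c : (⟨V, K⟩ : Tot P) ⟶ A
  cart : IsCart c

namespace Ch

variable {𝒲 : Tot P} {Q : ∀ X : 𝒮, D X → Prop}

/-- Morphisms of charts. -/
@[ext] structure Hom (C' C : Ch 𝒲 Q) where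
  e : C'.V ⟶ C.V
  g : C'.A.base ⟶ C.A.base
  w : g ≫ C.t.base = C'.t.base
  wk : C'.c.base ≫ g = e ≫ C.c.base

instance : Category (Ch 𝒲 Q) where
  Hom C' C := Hom C' C
  id C := ⟨𝟙 _, 𝟙 _, Category.id_comp _, by rw [Category.comp_id, Category.id_comp]⟩
  comp G' G := ⟨G'.e ≫ G.e, G'.g ≫ G.g, by rw [Category.assoc, G.w, G'.w], by
    rw [← Category.assoc, G'.wk, Category.assoc, G.wk, Category.assoc]⟩
  id_comp G := Hom.ext (Category.id_comp _) (Category.id_comp _)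
  comp_id G := Hom.ext (Category.comp_id _) (Category.comp_id _)
  assoc G₁ G₂ G₃ := Hom.ext (Category.assoc _ _ _) (Category.assoc _ _ _)

@[simp] lemma comp_e {C'' C' C : Ch 𝒲 Q} (G' : C'' ⟶ C') (G : C' ⟶ C) :
    (G' ≫ G).e = G'.e ≫ G.e := rfl
@[simp] lemma comp_g {C'' C' C : Ch 𝒲 Q} (G' : C'' ⟶ C') (G : C' ⟶ C) :
    (G' ≫ G).g = G'.g ≫ G.g := rfl

lemma hom_ext {C' C : Ch 𝒲 Q} {G₁ G₂ : C' ⟶ C} (h : G₁.e = G₂.e) (h' : G₁.g = G₂.g) : G₁ = G₂ :=
  Hom.ext h h'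

/-- The restricted object. -/
abbrev obj (C : Ch 𝒲 Q) : Tot P := ⟨C.V, C.K⟩

variable {C'' C' C : Ch 𝒲 Q}

/-- The trace of a morphism of charts. -/
noncomputable def push (G : C' ⟶ C) : PH C'.A C.A := (C.tr C'.A C'.q G.g C'.t G.w.symm).choose

lemma push_base (G : C' ⟶ C) : (push G).base = G.g :=
  (C.tr C'.A C'.q G.g C'.t G.w.symm).choose_spec.1

lemma push_comp (G : C' ⟶ C) : (push G).comp C.t = C'.t :=
  (C.tr C'.A C'.q G.g C'.t G.w.symm).choose_spec.2.1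

lemma push_uniq (G : C' ⟶ C) (s : PH C'.A C.A) (h : s.base = G.g) (h' : s.comp C.t = C'.t) :
    s = push G :=
  (C.tr C'.A C'.q G.g C'.t G.w.symm).choose_spec.2.2 s h h'

lemma push_comp_push (G' : C'' ⟶ C') (G : C' ⟶ C) : (push G').comp (push G) = push (G' ≫ G) := by
  refine push_uniq _ _ ?_ ?_
  · rw [PH.comp_base, push_base, push_base, comp_g]
  · rw [PH.comp_assoc, push_comp, push_comp]

/-- Good morphisms. -/
def Good (G : C' ⟶ C) : Prop := LocIso (push G) C'.c.base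

lemma exists_eps {G : C' ⟶ C} (hG : Good G) :
    ∃ ε : C'.obj ⟶ C.obj, ε.base = G.e ∧ IsCart ε ∧ IsOver (push G) C'.c C.c ε :=
  exists_over hG rfl C.cart (by rw [push_base, G.wk]) C'.cart

/-- The induced arrow. -/
noncomputable def eps {G : C' ⟶ C} (hG : Good G) : C'.obj ⟶ C.obj := (exists_eps hG).choose

lemma eps_base {G : C' ⟶ C} (hG : Good G) : (eps hG).base = G.e := (exists_eps hG).choose_spec.1
lemma eps_cart {G : C' ⟶ C} (hG : Good G) : IsCart (eps hG) := (exists_eps hG).choose_spec.2.1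
lemma eps_over {G : C' ⟶ C} (hG : Good G) : IsOver (push G) C'.c C.c (eps hG) :=
  (exists_eps hG).choose_spec.2.2

lemma eps_uniq {G : C' ⟶ C} (hG : Good G) (ε : C'.obj ⟶ C.obj) (h : ε.base = G.e)
    (h' : IsOver (push G) C'.c C.c ε) : ε = eps hG :=
  over_uniq hG C.cart (by rw [push_base, G.wk]) h (eps_base hG) h' (eps_over hG)

lemma eps_comp {G' : C'' ⟶ C'} {G : C' ⟶ C} (hG' : Good G') (hG : Good G) (h : Good (G' ≫ G)) :
    eps hG' ≫ eps hG = eps h := by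
  refine eps_uniq h _ ?_ ?_
  · rw [Tot.comp_base, eps_base, eps_base, comp_e]
  · rw [← push_comp_push]
    exact IsOver.comp (eps_over hG') (eps_over hG)

lemma eps_congr {G₁ G₂ : C' ⟶ C} (e : G₁ = G₂) (h₁ : Good G₁) (h₂ : Good G₂) :
    eps h₁ = eps h₂ := by
  subst e
  rfl

end Ch

end Groth.Agent.Dual.H324.Canon
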