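import Groth.Agent.Dual.H324.Charts
import Groth.Agent.S0384
import Groth.Prelude.Def_Dual3

/-!
# The canonical system of restrictions of the right adjoints

`exists_canonical`: `S` Noetherian, `W ∈ D_QCoh(S)` bounded below, `h : X ⟶ S` of finite type.  For the
opens `V ⊆ X` separated over `S` there are objects `K V ∈ D(O_V)` isomorphic to `(V ⟶ S)^! W` computed
by any compactification, and a strictly functorial system of cartesian arrows
`(V', K V') ⟶ (V, K V)` over the inclusions.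
-/

set_option autoImplicit false

universe u

open CategoryTheory CategoryTheory.Limits AlgebraicGeometry

attribute [local instance] HasDerivedCategory.standard

namespace Groth.Agent.Dual.H324.CanonSys

open Groth.Agent.PerfB.BCTot Groth.Agent.PerfB.BCTot.Tot Groth.Agent.Dual.H324.PushHom
  Groth.Agent.Dual.H324.Canon Groth.Agent.Dual.H324.Charts
  Groth.Agent.PerfB.BCSch Groth.Agent.Dcoh.DerSch Groth.Agent.Ega1.ADualUniv
open Groth.Agent.PerfA.Restrict (restrictD)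
open Groth.Agent.Dual.H358.GoodLoc (QN)

attribute [local instance] hasLpull hasRpush

variable {S X : Scheme.{u}}

/-- The opens of `X` separated over `S`. -/
def sepOpens (h : X ⟶ S) : Set X.Opens := {V | IsSeparated (V.ι ≫ h)}

lemma sepOpens_mono (h : X ⟶ S) (V : X.Opens) (hV : V ∈ sepOpens h) (V' : X.Opens) (hVV : V' ≤ V) :
    V' ∈ sepOpens h := by
  have h1 : IsSeparated (V.ι ≫ h) := hV
  change IsSeparated (V'.ι ≫ h)
  have h2 : V'.ι ≫ h = X.homOfLE hVV ≫ V.ι ≫ h := by rw [Scheme.homOfLE_ι_assoc]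
  rw [h2]
  infer_instance

/-- Two charts over the same `V` (over `S`) have isomorphic restrictions. -/
lemma nonempty_iso_of_cart_id {V : Scheme.{u}} {K K' : DCoh.D V}
    (c : (⟨V, K⟩ : Tot dPull.{u}) ⟶ ⟨V, K'⟩) (hb : c.base = 𝟙 V) (hc : IsCart c) :
    Nonempty (K ≅ K') := by
  obtain ⟨φ, rfl⟩ := Tot.exists_ver (P := dPull.{u}) c hb
  have : IsIso φ := (isCart_ver_iff (P := dPull.{u}) φ).1 hc
  exact ⟨(asIso φ).symm⟩

theorem exists_canonical [IsNoetherian S] (W : DCoh.D S) (hW : DCoh.IsQCohD W) (n : ℤ)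
    (hn : W.IsGE n) (h : X ⟶ S) [LocallyOfFiniteType h] [QuasiCompact h] :
    ∃ (K : ∀ V : sepOpens h, DCoh.D V.1.toScheme)
      (m : ∀ {V' V : sepOpens h}, V'.1 ≤ V.1 → ((⟨V'.1.toScheme, K V'⟩ : Tot dPull.{u}) ⟶
        ⟨V.1.toScheme, K V⟩)),
      (∀ {V' V : sepOpens h} (hV : V'.1 ≤ V.1), (m hV).base = X.homOfLE hV) ∧
      (∀ {V' V : sepOpens h} (hV : V'.1 ≤ V.1), IsCart (m hV)) ∧
      (∀ {V'' V' V : sepOpens h} (hV : V''.1 ≤ V'.1) (hV' : V'.1 ≤ V.1),
        m hV ≫ m hV' = m (hV.trans hV')) ∧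
      ∀ (V : sepOpens h) (P : Scheme.{u}) (k : V.1.toScheme ⟶ P) (p : P ⟶ S) [IsOpenImmersion k]
        [IsProper p] (_ : k ≫ p = V.1.ι ≫ h) (L : DCoh.D P) (τ : (DCoh.Rpush p).obj L ⟶ W)
        (_ : IsUniv p W L τ), Nonempty (K V ≅ (restrictD k).obj L) := by
  have hXn : IsNoetherian X := Groth.Agent.LoccohB.AdStruct.isNoetherian_of_finiteType h
  have hC : ∀ V : sepOpens h, ∃ (P : Scheme.{u}) (k : V.1.toScheme ⟶ P) (p : P ⟶ S)
      (_ : IsOpenImmersion k) (_ : IsProper p) (L : DCoh.D P) (τ : (DCoh.Rpush p).obj L ⟶ W),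
      k ≫ p = V.1.ι ≫ h ∧ IsUniv p W L τ ∧ ∃ m : ℤ, L.IsGE m := by
    intro V
    have h1 : IsSeparated (V.1.ι ≫ h) := V.2
    obtain ⟨P, k, p, h2, h3, h4, h5⟩ := S0384.result (V.1.ι ≫ h)
    obtain ⟨L, τ, hu, hb⟩ := exists_isUniv p W hW n hn
    exact ⟨P, k, p, h2, h4, L, τ, h5, hu, hb⟩
  choose P k p hk hp L τ w hu hb using hC
  let C (V : sepOpens h) : Ch (⟨S, W⟩ : Tot dPull.{u}) QN.{u} := ch (k V) (p V) (hu V)
  have hg (V : sepOpens h) : Geo (C V) := geo_ch (k V) (p V) (hu V) (hb V)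
  have hov : ∀ {V' V : sepOpens h} (hV : V'.1 ≤ V.1), Ch.Ov (C V') (C V) (X.homOfLE hV) := by
    intro V' V hV
    have e1 : (C V').c.base = k V' := ch_c_base _ _ _
    have e2 : (C V).c.base = k V := ch_c_base _ _ _
    change (C V').c.base ≫ p V' = X.homOfLE hV ≫ (C V).c.base ≫ p V
    rw [e1, e2]
    have e3 : V'.1.ι ≫ h = X.homOfLE hV ≫ k V ≫ p V := by rw [w V, Scheme.homOfLE_ι_assoc]
    exact (w V').trans e3
  refine ⟨fun V => (restrictD (k V)).obj (L V), fun {V' V} hV =>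
    Ch.can (sCalc hW n hn) (hg V') (hg V) (X.homOfLE hV)
      (inferInstanceAs (IsOpenImmersion (X.homOfLE hV))) (hov hV), ?_, ?_, ?_, ?_⟩
  · intro V' V hV
    exact Ch.can_base _ _ _ _ _ _
  · intro V' V hV
    exact Ch.can_cart _ _ _ _ _ _
  · intro V'' V' V hV hV'
    exact Ch.can_comp _ _ _ _ _ _ _ _ _ _ _ _ _ (Scheme.homOfLE_homOfLE _ _ _)
  · intro V P' k' p' _ _ w' L' τ' hu'
    have := Groth.Agent.LoccohB.AdStruct.isNoetherian_of_finiteType p'
    have hb' := Groth.Agent.LoccohB.AdStruct.exists_isGE p' ⟨_, hu'⟩ hW n hn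
    have hg' : Geo (ch k' p' hu') := geo_ch k' p' hu' hb'
    have ho : Ch.Ov (C V) (ch k' p' hu') (𝟙 V.1.toScheme) := by
      have e1 : (C V).c.base = k V := ch_c_base _ _ _
      have e2 : (ch k' p' hu').c.base = k' := ch_c_base _ _ _
      change (C V).c.base ≫ p V = 𝟙 V.1.toScheme ≫ (ch k' p' hu').c.base ≫ p'
      rw [e1, e2]
      exact (w V).trans (w'.symm.trans (Category.id_comp _).symm)
    exact nonempty_iso_of_cart_id (Ch.can (sCalc hW n hn) (hg V) hg' (𝟙 V.1.toScheme)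
      (inferInstanceAs (IsOpenImmersion (𝟙 V.1.toScheme))) ho) (Ch.can_base _ _ _ _ _ _)
      (Ch.can_cart _ _ _ _ _ _)

end Groth.Agent.Dual.H324.CanonSys
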