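import Groth.Agent.Dual.H324.Roofs
import Groth.Agent.Dual.H358.GoodLoc
import Groth.Agent.Dual.H358.Ore
import Groth.Agent.PerfB.BCShift
import Groth.Agent.PerfB.LpullOpens
import Groth.Agent.Ega1.ADualUniv
import Groth.Agent.LoccohB.AdStruct
import Groth.Agent.S0998
import Groth.Agent.S1766
import Mathlib.AlgebraicGeometry.Morphisms.SchemeTheoreticallyDominant

/-!
# Charts from universal pairs on schemes; the calculus of roofs for compactifications

* `resArr k L : (V, k^* L) ⟶ (P, L)` for an open immersion `k`;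
* `ch k p h`: the chart attached to an open immersion `k`, a proper `p` and a universal pair;
* `exists_isUniv`: existence of universal pairs;
* `Geo`, `Dom`, `sCalc`: the hypotheses `Ch.Calc` of the calculus of roofs.
-/

set_option autoImplicit false

universe u

open CategoryTheory CategoryTheory.Limits AlgebraicGeometry

attribute [local instance] HasDerivedCategory.standard

namespace Groth.Agent.Dual.H324.Charts

open Groth.Agent.PerfB.BCTot Groth.Agent.PerfB.BCTot.Tot Groth.Agent.Dual.H324.PushHom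
  Groth.Agent.Dual.H324.Canon Groth.Agent.PerfB.BCSch Groth.Agent.PerfB.BCShift
  Groth.Agent.Dcoh.DerSch Groth.Agent.Ega1.ADualUniv
open Groth.Agent.PerfA.Restrict (restrictD)
open Groth.Agent.Dual.H358.GoodLoc (QN pAdj tr)

attribute [local instance] hasLpull hasRpush

/-- The cartesian arrow attached to the restriction to an open. -/
noncomputable def resArr {V P : Scheme.{u}} (k : V ⟶ P) [IsOpenImmersion k] (L : DCoh.D P) :
    (⟨V, (restrictD k).obj L⟩ : Tot dPull.{u}) ⟶ ⟨P, L⟩ :=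
  (ver (P := dPull.{u}) ((Groth.Agent.PerfB.LpullOpens.lpullRestrictD k).hom.app L) :
    (⟨V, (restrictD k).obj L⟩ : Tot dPull.{u}) ⟶ ⟨V, (DCoh.Lpull k).obj L⟩) ≫
      cartLift (P := dPull.{u}) ⟨P, L⟩ k

lemma resArr_base {V P : Scheme.{u}} (k : V ⟶ P) [IsOpenImmersion k] (L : DCoh.D P) :
    (resArr k L).base = k := Category.id_comp _

lemma isCart_resArr {V P : Scheme.{u}} (k : V ⟶ P) [IsOpenImmersion k] (L : DCoh.D P) :
    IsCart (resArr k L) :=
  ((isCart_ver_iff (P := dPull.{u}) _).2 inferInstance).comp (isCart_cartLift _ _)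

/-- The chart attached to an open immersion `k : V ⟶ P`, a proper `p : P ⟶ S` and a universal
pair. -/
noncomputable def ch {S V P : Scheme.{u}} [IsNoetherian S] (k : V ⟶ P) [IsOpenImmersion k]
    (p : P ⟶ S) [IsProper p] {L : DCoh.D P} {W : DCoh.D S} {τ : (DCoh.Rpush p).obj L ⟶ W}
    (h : IsUniv p W L τ) : Ch (⟨S, W⟩ : Tot dPull.{u}) QN.{u} where
  V := V
  A := ⟨P, L⟩
  t := tr (P := dPull.{u}) (pAdj p) τ
  tr :=
    have := Groth.Agent.LoccohB.AdStruct.isNoetherian_of_finiteType p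
    Groth.Agent.Dual.H358.GoodLoc.isTr_of_isUniv p h
  q := ⟨Groth.Agent.LoccohB.AdStruct.isNoetherian_of_finiteType p, h.qcoh⟩
  K := (restrictD k).obj L
  c := resArr k L
  cart := isCart_resArr k L

lemma ch_c_base {S V P : Scheme.{u}} [IsNoetherian S] (k : V ⟶ P) [IsOpenImmersion k]
    (p : P ⟶ S) [IsProper p] {L : DCoh.D P} {W : DCoh.D S} {τ : (DCoh.Rpush p).obj L ⟶ W}
    (h : IsUniv p W L τ) : (ch k p h).c.base = k := resArr_base k L

/-- Existence of universal pairs. -/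
theorem exists_isUniv {P S : Scheme.{u}} [IsNoetherian S] (p : P ⟶ S) [IsProper p]
    (W : DCoh.D S) (hW : DCoh.IsQCohD W) (n : ℤ) (hn : W.IsGE n) :
    ∃ (L : DCoh.D P) (τ : (DCoh.Rpush p).obj L ⟶ W), IsUniv p W L τ ∧ ∃ m : ℤ, L.IsGE m := by
  have := Groth.Agent.LoccohB.AdStruct.isNoetherian_of_finiteType p
  have hf : ∀ N : DCoh.D P, DCoh.IsQCohD N → DCoh.IsQCohD ((DCoh.Rpush p).obj N) :=
    fun N hN => S0998.result p N hN
  have := S1766.result P S p hf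
  let adj := Adjunction.ofIsLeftAdjoint (ObjectProperty.lift DCoh.IsQCohD
    (ObjectProperty.ι DCoh.IsQCohD ⋙ DCoh.Rpush p) (fun K => hf K.obj K.property))
  have h := isUniv_of_adj adj ⟨W, hW⟩
  exact ⟨_, _, h, Groth.Agent.LoccohB.AdStruct.exists_isGE p ⟨_, h⟩ hW n hn⟩

/-- Geometric charts over `(S, W)`. -/
structure Geo {S : Scheme.{u}} {W : DCoh.D S} (C : Ch (⟨S, W⟩ : Tot dPull.{u}) QN.{u}) : Prop where
  proper : IsProper (show C.A.base ⟶ S from C.t.base)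
  openImm : IsOpenImmersion (show C.V ⟶ C.A.base from C.c.base)
  bdd : ∃ m : ℤ, (show DCoh.D C.A.base from C.A.fib).IsGE m

/-- Dense charts. -/
structure Dom {S : Scheme.{u}} {W : DCoh.D S} (C : Ch (⟨S, W⟩ : Tot dPull.{u}) QN.{u}) : Prop
    extends Geo C where
  dom : IsDominant (show C.V ⟶ C.A.base from C.c.base)
  schDom : IsSchemeTheoreticallyDominant (show C.V ⟶ C.A.base from C.c.base)

lemma geo_ch {S V P : Scheme.{u}} [IsNoetherian S] (k : V ⟶ P) [IsOpenImmersion k]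
    (p : P ⟶ S) [IsProper p] {L : DCoh.D P} {W : DCoh.D S} {τ : (DCoh.Rpush p).obj L ⟶ W}
    (h : IsUniv p W L τ) (hb : ∃ m : ℤ, L.IsGE m) : Geo (ch k p h) :=
  ⟨inferInstanceAs (IsProper p), by
    change IsOpenImmersion (ch k p h).c.base
    rw [ch_c_base]
    exact ‹IsOpenImmersion k›, hb⟩

lemma dom_ch {S V P : Scheme.{u}} [IsNoetherian S] (k : V ⟶ P) [IsOpenImmersion k]
    (p : P ⟶ S) [IsProper p] {L : DCoh.D P} {W : DCoh.D S} {τ : (DCoh.Rpush p).obj L ⟶ W}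
    (h : IsUniv p W L τ) (hb : ∃ m : ℤ, L.IsGE m) (h1 : IsDominant k)
    (h2 : IsSchemeTheoreticallyDominant k) : Dom (ch k p h) :=
  { geo_ch k p h hb with
    dom := by
      change IsDominant (ch k p h).c.base
      rw [ch_c_base]; exact h1
    schDom := by
      change IsSchemeTheoreticallyDominant (ch k p h).c.base
      rw [ch_c_base]; exact h2 }

section Calc

variable {S : Scheme.{u}} {W : DCoh.D S}

lemma dom_good [IsNoetherian S] {R C : Ch (⟨S, W⟩ : Tot dPull.{u}) QN.{u}} (hR : Dom R)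
    (hC : Geo C) (G : R ⟶ C) (hG : IsOpenImmersion (show R.V ⟶ C.V from G.e)) : Ch.Good G := by
  have h1 := hR.proper
  have h2 := hR.openImm
  have h3 := hR.dom
  have h4 := hC.proper
  have h5 := hC.openImm
  obtain ⟨m, hm⟩ := hC.bdd
  have hCn : IsNoetherian C.A.base := C.q.1
  have hp : IsProper (show R.A.base ⟶ C.A.base from G.g) := by
    have : IsProper ((show R.A.base ⟶ C.A.base from G.g) ≫ (show C.A.base ⟶ S from C.t.base)) := by
      have := G.w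
      rw [this]
      exact h1
    exact IsProper.of_comp _ (show C.A.base ⟶ S from C.t.base)
  have hk : IsOpenImmersion ((show R.V ⟶ C.V from G.e) ≫ (show C.V ⟶ C.A.base from C.c.base)) :=
    inferInstance
  exact Groth.Agent.Dual.H358.GoodLoc.locIso_of_dense (k' := R.c.base) (g := G.g)
    (k := (show R.V ⟶ C.V from G.e) ≫ (show C.V ⟶ C.A.base from C.c.base)) G.wk C.q.2 m hm R.q.2
    R.tr C.tr (Ch.push_base G) (Ch.push_comp G)

lemma dom_ore [IsNoetherian S] (hW : DCoh.IsQCohD W) (n : ℤ) (hn : W.IsGE n)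
    {Q₁ Q₂ C : Ch (⟨S, W⟩ : Tot dPull.{u}) QN.{u}} (h₁ : Dom Q₁) (h₂ : Dom Q₂) (hC : Geo C)
    (f : Q₁ ⟶ C) (G : Q₂ ⟶ C) (hG : IsIso (show Q₂.V ⟶ C.V from G.e)) :
    ∃ (R : Ch (⟨S, W⟩ : Tot dPull.{u}) QN.{u}) (r : R ⟶ Q₁) (s : R ⟶ Q₂), Dom R ∧
      IsIso (show R.V ⟶ Q₁.V from r.e) ∧ r ≫ f = s ≫ G := by
  have a1 := h₁.proper
  have a2 := h₁.openImm
  have a3 := h₂.proper
  have a4 := hC.proper
  have a5 : IsNoetherian Q₁.A.base := Q₁.q.1
  have e : (show Q₁.V ⟶ Q₁.A.base from Q₁.c.base) ≫ (show Q₁.A.base ⟶ C.A.base from f.g) =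
      ((show Q₁.V ⟶ C.V from f.e) ≫ inv (show Q₂.V ⟶ C.V from G.e) ≫
        (show Q₂.V ⟶ Q₂.A.base from Q₂.c.base)) ≫ (show Q₂.A.base ⟶ C.A.base from G.g) := by
    have e1 := f.wk
    have e2 := G.wk
    dsimp only at e1 e2 ⊢
    rw [e1, Category.assoc, Category.assoc, e2, IsIso.inv_hom_id_assoc]
  obtain ⟨R, j, q, r, b1, b2, b3, b4, b5, b6, b7, b8, b9, b10⟩ :=
    Groth.Agent.Dual.H358.Dom.exists_ore (show Q₁.A.base ⟶ S from Q₁.t.base)
      (show Q₂.A.base ⟶ S from Q₂.t.base) (show C.A.base ⟶ S from C.t.base)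
      (show Q₁.A.base ⟶ C.A.base from f.g) (show Q₂.A.base ⟶ C.A.base from G.g) f.w G.w
      (show Q₁.V ⟶ Q₁.A.base from Q₁.c.base)
      ((show Q₁.V ⟶ C.V from f.e) ≫ inv (show Q₂.V ⟶ C.V from G.e) ≫
        (show Q₂.V ⟶ Q₂.A.base from Q₂.c.base)) e
  obtain ⟨L, τ, hu, hb⟩ := exists_isUniv (q ≫ (show Q₁.A.base ⟶ S from Q₁.t.base)) W hW n hn
  refine ⟨ch j (q ≫ (show Q₁.A.base ⟶ S from Q₁.t.base)) hu,
    ⟨𝟙 _, q, rfl, ?_⟩, ⟨(show Q₁.V ⟶ C.V from f.e) ≫ inv (show Q₂.V ⟶ C.V from G.e), r,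
      b9.symm, ?_⟩, dom_ch _ _ hu hb b4 b3, ?_, ?_⟩
  · rw [ch_c_base]
    exact b7.trans (Category.id_comp _).symm
  · rw [ch_c_base]
    exact b8.trans (Category.assoc _ _ _).symm
  · change IsIso (𝟙 _)
    infer_instance
  · refine Ch.hom_ext ?_ b10
    change 𝟙 _ ≫ (show Q₁.V ⟶ C.V from f.e) =
      ((show Q₁.V ⟶ C.V from f.e) ≫ inv (show Q₂.V ⟶ C.V from G.e)) ≫ (show Q₂.V ⟶ C.V from G.e)
    rw [Category.id_comp, Category.assoc, IsIso.inv_hom_id, Category.comp_id]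

lemma dom_eq {Q₁ C : Ch (⟨S, W⟩ : Tot dPull.{u}) QN.{u}} (h₁ : Dom Q₁) (hC : Geo C)
    (G₁ G₂ : Q₁ ⟶ C) (he : G₁.e = G₂.e) : G₁ = G₂ := by
  have a3 := h₁.schDom
  have a4 := hC.proper
  refine Ch.hom_ext he ?_
  refine Groth.Agent.Dual.H358.Dom.ext_of_dense (show Q₁.V ⟶ Q₁.A.base from Q₁.c.base)
    (show C.A.base ⟶ S from C.t.base) (a := (show Q₁.A.base ⟶ C.A.base from G₁.g))
    (b := (show Q₁.A.base ⟶ C.A.base from G₂.g)) (G₁.w.trans G₂.w.symm) ?_
  have e1 := G₁.wk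
  have e2 := G₂.wk
  dsimp only at e1 e2 ⊢
  rw [e1, e2, he]

lemma dom_roof [IsNoetherian S] (hW : DCoh.IsQCohD W) (n : ℤ) (hn : W.IsGE n)
    {C' C : Ch (⟨S, W⟩ : Tot dPull.{u}) QN.{u}} (hC' : Geo C') (hC : Geo C) (e : C'.V ⟶ C.V)
    (ho : Ch.Ov C' C e) : ∃ (Q₁ : Ch (⟨S, W⟩ : Tot dPull.{u}) QN.{u}) (G' : Q₁ ⟶ C') (G : Q₁ ⟶ C),
      Dom Q₁ ∧ IsIso (show Q₁.V ⟶ C'.V from G'.e) ∧ G.e = G'.e ≫ e := by
  have a1 := hC'.proper
  have a2 := hC'.openImm
  have a4 := hC.proper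
  have a5 : IsNoetherian C'.A.base := C'.q.1
  obtain ⟨R, j, q, r, b1, b2, b3, b4, b5, b6, b7, b8, b9⟩ :=
    Groth.Agent.Dual.H358.Dom.exists_closure (show C'.A.base ⟶ S from C'.t.base)
      (show C.A.base ⟶ S from C.t.base) (show C'.V ⟶ C'.A.base from C'.c.base)
      ((show C'.V ⟶ C.V from e) ≫ (show C.V ⟶ C.A.base from C.c.base))
      (ho.trans (Category.assoc _ _ _).symm)
  obtain ⟨L, τ, hu, hb⟩ := exists_isUniv (q ≫ (show C'.A.base ⟶ S from C'.t.base)) W hW n hn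
  refine ⟨ch j (q ≫ (show C'.A.base ⟶ S from C'.t.base)) hu,
    ⟨𝟙 _, q, rfl, ?_⟩, ⟨e, r, b9.symm, ?_⟩, dom_ch _ _ hu hb b4 b3, ?_, ?_⟩
  · rw [ch_c_base]
    exact b7.trans (Category.id_comp _).symm
  · rw [ch_c_base]
    exact b8
  · change IsIso (𝟙 _)
    infer_instance
  · exact (Category.id_comp _).symm

/-- The calculus of roofs for compactifications over `(S, W)`. -/
noncomputable def sCalc [IsNoetherian S] (hW : DCoh.IsQCohD W) (n : ℤ) (hn : W.IsGE n) :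
    Ch.Calc (⟨S, W⟩ : Tot dPull.{u}) QN.{u} where
  Geo := Geo
  Dom := Dom
  O {V' V} e := IsOpenImmersion (show V' ⟶ V from e)
  dom_geo h := h.toGeo
  O_iso {V' V} e h := by
    have : IsIso (show V' ⟶ V from e) := h
    change IsOpenImmersion (show V' ⟶ V from e)
    infer_instance
  O_comp {V'' V' V} e' e h' h := by
    have h1 : IsOpenImmersion (show V'' ⟶ V' from e') := h'
    have h2 : IsOpenImmersion (show V' ⟶ V from e) := h
    exact inferInstanceAs (IsOpenImmersion ((show V'' ⟶ V' from e') ≫ (show V' ⟶ V from e)))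
  good hR hC G hG := dom_good hR hC G hG
  ore h₁ h₂ hC f G _ hG := dom_ore hW n hn h₁ h₂ hC f G hG
  eq {Q₁ C} h₁ hC G₁ G₂ _ he := ⟨Q₁, 𝟙 Q₁, h₁, inferInstanceAs (IsIso (𝟙 Q₁.V)), by
    rw [dom_eq h₁ hC G₁ G₂ he]⟩
  roof hC' hC e _ ho := dom_roof hW n hn hC' hC e ho

end Calc

end Groth.Agent.Dual.H324.Charts
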