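import Groth.Agent.LoccohB.GoodSch
import Groth.Agent.LoccohB.GorFibreIff
import Groth.Agent.PerfA.FieldSch
import Groth.Agent.LoccohB.TildeEta2
import Groth.Prelude.Def_Dual3

/-!
# Dualizing complexes and Gorenstein local rings on schemes

* `restrictO`: `O_X[n]` restricts to `O_U[n]`.
* `tildeO`: `(A[n])^~ = O[n]` on `Spec A`.
* `exists_spread`: `ω` dualizing over `A`, `A_p` Gorenstein: `ω ⊗ A_f ≅ A_f[-m]` for some `f ∉ p`.
* `isGorensteinLocalRing_of_iso`: `A[-m]` dualizing over `A`: `A_p` is Gorenstein.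
* `exists_chart_le`: affine charts inside an open neighbourhood.
-/

set_option autoImplicit false
universe u
open CategoryTheory CategoryTheory.Limits AlgebraicGeometry
attribute [local instance] HasDerivedCategory.standard

namespace Groth.Agent.Dual.H324.InvLoc

open Groth.Agent.LoccohB Groth.Agent.LoccohB.DBase Groth.Agent.LoccohB.FlatLBC Groth.Agent.LoccohB.HomBC
open Groth.Agent.PerfA.Restrict Groth.Agent.PerfA.PerfLocal

section Ring

variable {A : Type u} [CommRing A]

/-- If `ω` is dualizing over the Noetherian ring `A` and `A_p` is Gorenstein, then `ω` is a shift of `A` on a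
basic open neighbourhood of `p`. -/
theorem exists_spread [IsNoetherianRing A] {ω : Dual.D A} (hω : Dual.IsDualizing A ω) (p : Ideal A)
    [p.IsPrime] (hG : LocCoh.IsGorensteinLocalRing (Localization.AtPrime p)) :
    ∃ (f : A) (_ : f ∉ p) (m : ℤ),
      Nonempty ((flatBC (algebraMap A (Localization.Away f)) (GorSpread.flat_away f)).obj ω ≅
        sg (Localization.Away f) m (Localization.Away f)) := by
  obtain ⟨a, b, ha, hb, -⟩ := exists_bounds_of_isDualizing hω
  have hN : IsNoetherianRing (Localization.AtPrime p) :=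
    IsLocalization.isNoetherianRing p.primeCompl _ inferInstance
  have hd : Dual.IsDualizing (Localization.AtPrime p)
      ((flatBC (algebraMap A (Localization.AtPrime p)) (GorSpread.flat_atPrime p)).obj ω) :=
    FlatDual.isDualizing_flatBC_of_maximal (GorSpread.flat_atPrime p) ω hω (fun m _ =>
      ⟨m.comap (algebraMap A _), IsLocalization.map_under p.primeCompl _ m⟩)
  obtain ⟨m, ⟨e⟩⟩ := GorDual.nonempty_iso_of_isDualizing_self
    (Localalg.DGor.isDualizing_of_gorenstein (Localization.AtPrime p)) _ hd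
  obtain ⟨f, hf, h⟩ := GorSpread.spread p ω a b hω.finite_cohomology m e
  exact ⟨f, hf, m, h⟩

/-- If `A[-m]` is a dualizing complex then all localizations of `A` at primes are Gorenstein. -/
theorem isGorensteinLocalRing_of_sg (m : ℤ) (h : Dual.IsDualizing A (sg A m A)) (p : Ideal A) [p.IsPrime] :
    LocCoh.IsGorensteinLocalRing (Localization.AtPrime p) := by
  have hA : IsNoetherianRing A := h.isNoetherianRing
  have hN : IsNoetherianRing (Localization.AtPrime p) :=
    IsLocalization.isNoetherianRing p.primeCompl _ inferInstance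
  have hd : Dual.IsDualizing (Localization.AtPrime p)
      ((flatBC (algebraMap A (Localization.AtPrime p)) (GorSpread.flat_atPrime p)).obj (sg A m A)) :=
    FlatDual.isDualizing_flatBC_of_maximal (GorSpread.flat_atPrime p) _ h (fun m _ =>
      ⟨m.comap (algebraMap A _), IsLocalization.map_under p.primeCompl _ m⟩)
  exact GorDesc.isGorensteinLocalRing_of_isDualizing m
    (DualShift.isDualizing_of_iso (GorSpread.flatSg (Localization.AtPrime p) (GorSpread.flat_atPrime p) m) hd)

end Ring

section Sch

variable {X : Scheme.{u}}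

/-- `O_X[n]` restricts to `O_U[n]`. -/
noncomputable def restrictShiftO {X U : Scheme.{u}} (j : U ⟶ X) [IsOpenImmersion j] (n : ℤ) :
    (restrictD j).obj ((DCoh.inD X (Coh.structureModule X))⟦n⟧) ≅
      (DCoh.inD U (Coh.structureModule U))⟦n⟧ :=
  ((restrictD j).commShiftIso n).app _ ≪≫
    (shiftFunctor (DCoh.D U) n).mapIso (TildeEta.restrictSingle j 0).symm

/-- `O_X[n]` as a single complex. -/
noncomputable def shiftOSingle (X : Scheme.{u}) (n : ℤ) :
    (DCoh.inD X (Coh.structureModule X))⟦n⟧ ≅
      (DerivedCategory.singleFunctor X.Modules (-n)).obj (Coh.structureModule X) :=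
  ((DerivedCategory.singleFunctors X.Modules).shiftIso n (-n) 0 (by simp)).app _

/-- Affine charts inside an open neighbourhood. -/
theorem exists_chart_le [IsLocallyNoetherian X] (x : X) (U : X.Opens) (hx : x ∈ U) :
    ∃ (A : Type u) (_ : CommRing A) (_ : IsNoetherianRing A) (j : Spec (CommRingCat.of A) ⟶ X)
      (_ : IsOpenImmersion j) (p : PrimeSpectrum A), j p = x ∧ j.opensRange ≤ U := by
  obtain ⟨V, hV, hxV, hVU⟩ := exists_isAffineOpen_mem_and_subset (x := x) (U := U) hx
  refine ⟨Γ(X, V), inferInstance, IsLocallyNoetherian.component_noetherian ⟨V, hV⟩, hV.fromSpec,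
    inferInstance, hV.primeIdealOf ⟨x, hxV⟩, hV.fromSpec_primeIdealOf ⟨x, hxV⟩, ?_⟩
  rw [hV.opensRange_fromSpec]
  exact hVU

/-- Gorenstein local rings are invariant under ring isomorphism. -/
theorem gorenstein_stalk_iff (A : Type u) [CommRing A] (j : Spec (CommRingCat.of A) ⟶ X)
    [IsOpenImmersion j] (p : PrimeSpectrum A) :
    LocCoh.IsGorensteinLocalRing (X.presheaf.stalk (j p)) ↔
      LocCoh.IsGorensteinLocalRing (Localization.AtPrime p.asIdeal) := by
  have e1 : X.presheaf.stalk (j p) ≃+* (Spec (CommRingCat.of A)).presheaf.stalk p :=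
    (asIso (j.stalkMap p)).commRingCatIsoToRingEquiv
  have e2 : (Spec (CommRingCat.of A)).presheaf.stalk p ≃+* Localization.AtPrime p.asIdeal :=
    (StructureSheaf.stalkIso A p).toRingEquiv.symm
  exact ⟨GorBasic.isGorensteinLocalRing_of_ringEquiv (e1.trans e2),
    GorBasic.isGorensteinLocalRing_of_ringEquiv (e1.trans e2).symm⟩

/-- A dualizing complex is locally a shift of the structure sheaf near a point with Gorenstein local ring. -/
theorem exists_nhd [∀ (R : CommRingCat.{u}), PreservesFiniteLimits (tilde.functor R)]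
    (K : DCoh.D X) {A : Type u} [CommRing A] [IsNoetherianRing A]
    (j : Spec (CommRingCat.of A) ⟶ X) [IsOpenImmersion j] (p : PrimeSpectrum A) {ω : Dual.D A}
    (hω : Dual.IsDualizing A ω) (e : (restrictD j).obj K ≅ (DCoh.tildeD (CommRingCat.of A)).obj ω)
    (hG : LocCoh.IsGorensteinLocalRing (X.presheaf.stalk (j p))) :
    ∃ (U : X.Opens) (n : ℤ), j p ∈ U ∧
      Nonempty ((restrictD U.ι).obj K ≅
        (DCoh.inD (U : Scheme.{u}) (Coh.structureModule (U : Scheme.{u})))⟦n⟧) := by
  rw [gorenstein_stalk_iff] at hG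
  obtain ⟨f, hf, m, ⟨e2⟩⟩ := exists_spread hω p.asIdeal hG
  let φ : CommRingCat.of A ⟶ CommRingCat.of (Localization.Away f) :=
    CommRingCat.ofHom (algebraMap A (Localization.Away f))
  have hφ : IsOpenImmersion (Spec.map φ) :=
    Scheme.isOpenImmersion_SpecMap_localizationAway (R := CommRingCat.of A) f
  let k : Spec (CommRingCat.of (Localization.Away f)) ⟶ X := Spec.map φ ≫ j
  have hk : IsOpenImmersion k := inferInstance
  let i := k.isoOpensRange
  have hi : i.inv ≫ k = k.opensRange.ι := k.isoOpensRange_inv_comp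
  refine ⟨k.opensRange, -m, ?_, ⟨?_⟩⟩
  · obtain ⟨q, hq⟩ : p ∈ Set.range (Spec.map φ) := by
      have h1 : Set.range (Spec.map φ) = (PrimeSpectrum.basicOpen f : Set (PrimeSpectrum A)) :=
        PrimeSpectrum.localization_away_comap_range (Localization.Away f) f
      rw [h1]
      exact hf
    exact ⟨q, by rw [← hq]; rfl⟩
  · exact (restrictDCongr hi).symm.app K ≪≫ ((restrictDComp i.inv k).app K).symm ≪≫
      (restrictD i.inv).mapIso (((restrictDComp (Spec.map φ) j).app K).symm ≪≫
        (restrictD (Spec.map φ)).mapIso e ≪≫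
        GoodSch.restrictTilde φ (GorSpread.flat_away f) ω ≪≫
        (DCoh.tildeD (CommRingCat.of (Localization.Away f))).mapIso e2 ≪≫
        (Detect531.isoTildeD (CommRingCat.of (Localization.Away f)) m).symm) ≪≫
      (TildeEta.restrictSingle i.inv m).symm ≪≫
      ((DerivedCategory.singleFunctors _).shiftIso (-m) m 0 (by simp)).symm.app _

/-- If a dualizing complex is a shift of the structure sheaf near a point, the local ring is Gorenstein. -/
theorem gorenstein_of_nhd [IsLocallyNoetherian X]
    [∀ (U : Scheme.{u}) (j : U ⟶ X) [IsOpenImmersion j],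
      PreservesFiniteLimits (Scheme.Modules.restrictFunctor j)]
    [∀ (R : CommRingCat.{u}), PreservesFiniteLimits (tilde.functor R)]
    (K : DCoh.D X) (hK : Dual2.IsDualizingSch X K) (x : X) (U : X.Opens) (n : ℤ) (hx : x ∈ U)
    (e : (restrictD U.ι).obj K ≅
        (DCoh.inD (U : Scheme.{u}) (Coh.structureModule (U : Scheme.{u})))⟦n⟧) :
    LocCoh.IsGorensteinLocalRing (X.presheaf.stalk x) := by
  obtain ⟨A, _, _, j, _, p, rfl, hjU⟩ := exists_chart_le x U hx
  rw [gorenstein_stalk_iff]
  obtain ⟨ω, hω, ⟨e₁⟩⟩ := hK A j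
  let k : Spec (CommRingCat.of A) ⟶ U := IsOpenImmersion.lift U.ι j (by rw [Scheme.Opens.range_ι]; exact hjU)
  have hkj : k ≫ U.ι = j := IsOpenImmersion.lift_fac _ _ _
  have hk : IsOpenImmersion k := by
    have : IsOpenImmersion (k ≫ U.ι) := by rw [hkj]; infer_instance
    exact IsOpenImmersion.of_comp k U.ι
  obtain ⟨e₂⟩ := GoodSch.nonempty_iso_of_tildeD (CommRingCat.of A) (M := ω) (N := sg A (-n) A)
    (e₁.symm ≪≫ (restrictDCongr hkj).symm.app K ≪≫ ((restrictDComp k U.ι).app K).symm ≪≫
      (restrictD k).mapIso e ≪≫ restrictShiftO k n ≪≫ shiftOSingle _ n ≪≫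
      Detect531.isoTildeD (CommRingCat.of A) (-n))
  exact isGorensteinLocalRing_of_sg (-n) (DualShift.isDualizing_of_iso e₂ hω) p.asIdeal

end Sch

end Groth.Agent.Dual.H324.InvLoc
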