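import Groth.Agent.PerfB.BCTot

/-!
# Push morphisms in the total category of a pseudofunctor

A push morphism `PH A' A` over `g : A'.base ⟶ A.base` is a morphism `g_* A' ⟶ A` in the fibre over
`A.base`, given (without choosing `g_* A'`) as a natural family of maps
`(x : A' ⟶ B over g ≫ b) ↦ (A ⟶ B over b)`.  Composition is strict.

* `PH.comp`, `PH.ext_of_cocart`, `PH.ofCocart`, `PH.exists_ver`: representability by `g_* A'`;
* `IsTr Q t`: `t : PH A 𝒲` is a universal trace (for objects satisfying `Q`);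
* `IsOver s c' c ε`: the arrow `ε` between the restrictions induced by `s`; `IsOver.comp`,
  `exists_over`, `over_uniq`.
-/

set_option autoImplicit false

universe v₁ u₁ v₂ u₂

open CategoryTheory

namespace Groth.Agent.Dual.H324.PushHom

open Groth.Agent.PerfB.BCTot Groth.Agent.PerfB.BCTot.Tot

variable {𝒮 : Type u₁} [Category.{v₁} 𝒮] {D : 𝒮 → Type u₂} [∀ X, Category.{v₂} (D X)]
  {P : PullData D}

/-- Push morphisms. -/
structure PH (A' A : Tot P) where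
  base : A'.base ⟶ A.base
  app : ∀ {B : Tot P} (b : A.base ⟶ B.base) (x : A' ⟶ B), x.base = base ≫ b → (A ⟶ B)
  app_base : ∀ {B : Tot P} (b : A.base ⟶ B.base) (x : A' ⟶ B) (hx : x.base = base ≫ b),
    (app b x hx).base = b
  nat : ∀ {B B' : Tot P} (b : A.base ⟶ B.base) (x : A' ⟶ B) (hx : x.base = base ≫ b) (y : B ⟶ B')
    (b' : A.base ⟶ B'.base) (hx' : (x ≫ y).base = base ≫ b'), b' = b ≫ y.base →
    app b' (x ≫ y) hx' = app b x hx ≫ y

namespace PH

variable {A'' A' A B : Tot P}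

lemma ext' {s s' : PH A' A} (h : s.base = s'.base)
    (h' : ∀ {B : Tot P} (b : A.base ⟶ B.base) (x : A' ⟶ B) (hx : x.base = s.base ≫ b)
      (hx' : x.base = s'.base ≫ b), s.app b x hx = s'.app b x hx') : s = s' := by
  obtain ⟨g, f, p, q⟩ := s
  obtain ⟨g', f', p', q'⟩ := s'
  obtain rfl : g = g' := h
  have : @f = @f' := by
    funext B b x hx
    exact h' b x hx hx
  subst this
  rfl

lemma app_congr (s : PH A' A) {b b' : A.base ⟶ B.base} {x x' : A' ⟶ B} (e : b = b')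
    (e' : x = x') (hx : x.base = s.base ≫ b) (hx' : x'.base = s.base ≫ b') :
    s.app b x hx = s.app b' x' hx' := by
  subst e e'
  rfl

/-- Composition. -/
@[simps] def comp (s' : PH A'' A') (s : PH A' A) : PH A'' A where
  base := s'.base ≫ s.base
  app b x hx := s.app b (s'.app (s.base ≫ b) x (by rw [hx, Category.assoc])) (s'.app_base _ _ _)
  app_base b x hx := s.app_base _ _ _
  nat b x hx y b' hx' e := by
    subst e
    rw [← s.nat b _ _ y (b ≫ y.base) (by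
      rw [Tot.comp_base, s'.app_base, Category.assoc]) rfl]
    exact s.app_congr rfl (s'.nat _ _ _ _ _ _ (by rw [Category.assoc])) _ _

lemma comp_assoc {A₀ : Tot P} (s'' : PH A₀ A'') (s' : PH A'' A') (s : PH A' A) :
    (s''.comp s').comp s = s''.comp (s'.comp s) := by
  refine ext' (Category.assoc _ _ _) ?_
  intro B b x hx hx'
  refine s.app_congr rfl ?_ _ _
  refine s'.app_congr rfl ?_ _ _
  exact s''.app_congr (Category.assoc _ _ _).symm rfl _ _

/-- The identity. -/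
@[simps] def id (A : Tot P) : PH A A where
  base := 𝟙 A.base
  app b x _ := x
  app_base b x hx := by rw [hx, Category.id_comp]
  nat _ _ _ _ _ _ _ := rfl

lemma id_comp (s : PH A' A) : (PH.id A').comp s = s :=
  ext' (Category.id_comp _) (fun _ _ _ _ => s.app_congr rfl rfl _ _)

/-- The push morphism attached to a cocartesian arrow `A' ⟶ g_* A'` and a morphism `g_* A' ⟶ A`. -/
noncomputable def ofCocart {N : D A.base} (m : A' ⟶ (⟨A.base, N⟩ : Tot P)) (hm : IsCocart m)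
    (φ : N ⟶ A.fib) : PH A' A where
  base := m.base
  app b x hx := (ver φ : A ⟶ (⟨A.base, N⟩ : Tot P)) ≫ (hm.desc x b hx.symm).choose
  app_base b x hx := by
    have h1 := (hm.desc x b hx.symm).choose_spec.1
    rw [Tot.comp_base, h1]
    exact Category.id_comp _
  nat b x hx y b' hx' e := by
    subst e
    have h1 := (hm.desc x b hx.symm).choose_spec
    have h2 := (hm.desc (x ≫ y) (b ≫ y.base) hx'.symm).choose_spec
    rw [Category.assoc]
    congr 1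
    refine hm.uniq ?_ ?_
    · rw [h2.1, Tot.comp_base, h1.1]
    · rw [h2.2, reassoc_of% h1.2]

lemma ofCocart_app {N : D A.base} (m : A' ⟶ (⟨A.base, N⟩ : Tot P)) (hm : IsCocart m)
    (φ : N ⟶ A.fib) {B : Tot P} (y : (⟨A.base, N⟩ : Tot P) ⟶ B) (b : A.base ⟶ B.base)
    (hb : b = y.base) (hx) : (ofCocart m hm φ).app b (m ≫ y) hx = ver φ ≫ y := by
  subst hb
  change ver φ ≫ (hm.desc (m ≫ y) y.base hx.symm).choose = ver φ ≫ y
  have h2 := (hm.desc (m ≫ y) y.base hx.symm).choose_spec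
  congr 1
  exact hm.uniq h2.1 h2.2

/-- A push morphism is determined by its value on a cocartesian arrow. -/
lemma ext_of_cocart {s s' : PH A' A} (h : s.base = s'.base) {N : D A.base}
    (m : A' ⟶ (⟨A.base, N⟩ : Tot P)) (hm : IsCocart m) (hb : m.base = s.base)
    (h1 : ∀ hx hx', s.app (B := ⟨A.base, N⟩) (𝟙 A.base) m hx =
      s'.app (B := ⟨A.base, N⟩) (𝟙 A.base) m hx') : s = s' := by
  refine ext' h ?_
  intro B b x hx hx'
  obtain ⟨y, hy, rfl⟩ := hm.desc x b (by rw [hb, hx])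
  have hx₁ : m.base = s.base ≫ 𝟙 A.base := by rw [hb, Category.comp_id]
  have hx₂ : m.base = s'.base ≫ 𝟙 A.base := by rw [hb, h, Category.comp_id]
  have e : b = 𝟙 A.base ≫ y.base := by rw [hy]; exact (Category.id_comp _).symm
  rw [s.nat (B := ⟨A.base, N⟩) (𝟙 A.base) m hx₁ y b hx e,
    s'.nat (B := ⟨A.base, N⟩) (𝟙 A.base) m hx₂ y b hx' e, h1 hx₁ hx₂]

lemma exists_ver (s : PH A' A) {N : D A.base} (m : A' ⟶ (⟨A.base, N⟩ : Tot P))
    (hx : m.base = s.base ≫ 𝟙 A.base) :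
    ∃ φ : N ⟶ A.fib, s.app (B := ⟨A.base, N⟩) (𝟙 A.base) m hx = ver φ := by
  obtain ⟨φ, hφ⟩ := Tot.exists_ver (P := P) (s.app (B := ⟨A.base, N⟩) (𝟙 A.base) m hx)
    (s.app_base _ _ _)
  exact ⟨φ, hφ.symm⟩

end PH

/-! ### Universal traces -/

lemma ver_comp_cocartLift {X Y : 𝒮} (f : X ⟶ Y) {R : D X ⥤ D Y} (adj : P.pull f ⊣ R) {M L : D X}
    (ψ : M ⟶ L) :
    (ver ψ : (⟨X, L⟩ : Tot P) ⟶ ⟨X, M⟩) ≫ cocartLift f adj M =
      cocartLift f adj L ≫ (ver (R.map ψ) : (⟨Y, R.obj L⟩ : Tot P) ⟶ ⟨Y, R.obj M⟩) := by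
  unfold cocartLift
  rw [ver_comp' (P := P) ψ (B := ⟨Y, R.obj M⟩) f (adj.counit.app M),
    comp_ver' (P := P) (R.map ψ) (A := ⟨X, L⟩) f (adj.counit.app L)]
  have h := adj.counit.naturality ψ
  simp only [Functor.comp_map, Functor.id_map] at h
  rw [h]

/-- `t : PH A 𝒲` is a universal trace, tested on objects satisfying `Q`. -/
def IsTr (Q : ∀ X : 𝒮, D X → Prop) {A 𝒲 : Tot P} (t : PH A 𝒲) : Prop :=
  ∀ (A' : Tot P), Q A'.base A'.fib → ∀ (g : A'.base ⟶ A.base) (u : PH A' 𝒲),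
    u.base = g ≫ t.base → ∃ s : PH A' A, s.base = g ∧ s.comp t = u ∧
      ∀ s' : PH A' A, s'.base = g → s'.comp t = u → s' = s

lemma IsTr.uniq {Q : ∀ X : 𝒮, D X → Prop} {A 𝒲 : Tot P} {t : PH A 𝒲} (ht : IsTr Q t) {A' : Tot P}
    (hA' : Q A'.base A'.fib) {s s' : PH A' A} (h : s.base = s'.base) (h' : s.comp t = s'.comp t) :
    s = s' := by
  obtain ⟨r, -, -, hr⟩ := ht A' hA' s.base (s.comp t) rfl
  rw [hr s rfl rfl, hr s' h.symm h'.symm]

/-- Universality of a trace from a bijection in the fibres. -/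
theorem isTr_ofCocart {A : Tot P} {S : 𝒮} {π : A.base ⟶ S} {R : D A.base ⥤ D S}
    (adj : P.pull π ⊣ R) {W : D S} (τ : R.obj A.fib ⟶ W) (Q' : D A.base → Prop)
    (H : ∀ M : D A.base, Q' M → Function.Bijective (fun ψ : M ⟶ A.fib => R.map ψ ≫ τ))
    (Q : ∀ X : 𝒮, D X → Prop)
    (hQ : ∀ (A' : Tot P), Q A'.base A'.fib → ∀ g : A'.base ⟶ A.base,
      ∃ (M : D A.base) (n : A' ⟶ (⟨A.base, M⟩ : Tot P)), n.base = g ∧ IsCocart n ∧ Q' M) :
    IsTr Q (PH.ofCocart (A := ⟨S, W⟩) (cocartLift (P := P) π adj A.fib)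
      (isCocart_cocartLift π adj A.fib) τ) := by
  set t := PH.ofCocart (A' := A) (A := ⟨S, W⟩) (cocartLift (P := P) π adj A.fib)
      (isCocart_cocartLift π adj A.fib) τ with ht
  intro A' hA' g u hu
  obtain ⟨M, n, hn, hnc, hM⟩ := hQ A' hA' g
  have htb : t.base = π := rfl
  -- the cocartesian arrow `A' ⟶ (g ≫ π)_* A'`
  have hl : IsCocart (n ≫ cocartLift (P := P) π adj M) := hnc.comp (isCocart_cocartLift π adj M)
  have hlb : (n ≫ cocartLift (P := P) π adj M).base = g ≫ π := by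
    rw [Tot.comp_base, hn]; rfl
  have hub : (n ≫ cocartLift (P := P) π adj M).base = u.base ≫ 𝟙 S := by
    rw [hlb, Category.comp_id, hu, htb]
  -- values of composites
  have key : ∀ (s : PH A' A) (hs : s.base = g) (ψ : M ⟶ A.fib)
      (hx : n.base = s.base ≫ 𝟙 A.base)
      (_ : s.app (B := ⟨A.base, M⟩) (𝟙 A.base) n hx = ver ψ)
      (hy : (n ≫ cocartLift (P := P) π adj M).base = (s.comp t).base ≫ 𝟙 S),
      (s.comp t).app (B := ⟨S, R.obj M⟩) (𝟙 S) (n ≫ cocartLift (P := P) π adj M) hy =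
        (ver (R.map ψ ≫ τ) : (⟨S, W⟩ : Tot P) ⟶ ⟨S, R.obj M⟩) := by
    intro s hs ψ hx hψ hy
    have e1 : s.app (B := ⟨S, R.obj M⟩) (t.base ≫ 𝟙 S) (n ≫ cocartLift (P := P) π adj M) (by
        rw [hy, PH.comp_base, Category.assoc]) =
        cocartLift (P := P) π adj A.fib ≫
          (ver (R.map ψ) : (⟨S, R.obj A.fib⟩ : Tot P) ⟶ ⟨S, R.obj M⟩) := by
      rw [s.nat (B := ⟨A.base, M⟩) (𝟙 A.base) n hx (cocartLift (P := P) π adj M) _ _ (by
        rw [htb]; exact (Category.comp_id _).trans (Category.id_comp _).symm), hψ]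
      exact ver_comp_cocartLift π adj ψ
    have e2 : (s.comp t).app (B := ⟨S, R.obj M⟩) (𝟙 S) (n ≫ cocartLift (P := P) π adj M) hy =
        t.app (B := ⟨S, R.obj M⟩) (𝟙 S) (cocartLift (P := P) π adj A.fib ≫
          (ver (R.map ψ) : (⟨S, R.obj A.fib⟩ : Tot P) ⟶ ⟨S, R.obj M⟩)) (by
            rw [Tot.comp_base, htb]; rfl) :=
      t.app_congr rfl e1 (s.app_base _ _ _) _
    refine e2.trans ((PH.ofCocart_app (A := ⟨S, W⟩) (cocartLift (P := P) π adj A.fib)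
      (isCocart_cocartLift π adj A.fib) τ
      (ver (R.map ψ) : (⟨S, R.obj A.fib⟩ : Tot P) ⟶ ⟨S, R.obj M⟩) (𝟙 S) rfl _).trans ?_)
    exact ver_comp_ver _ _
  obtain ⟨ω, hω⟩ := u.exists_ver (n ≫ cocartLift (P := P) π adj M) hub
  obtain ⟨ψ, hψ⟩ := (H M hM).2 ω
  dsimp only at hψ
  have hnx : n.base = (PH.ofCocart (A := A) n hnc ψ).base ≫ 𝟙 A.base := by
    exact (Category.comp_id _).symm
  have hval : (PH.ofCocart (A := A) n hnc ψ).app (B := ⟨A.base, M⟩) (𝟙 A.base) n hnx = ver ψ := by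
    have h1 := PH.ofCocart_app (A := A) n hnc ψ (𝟙 (⟨A.base, M⟩ : Tot P)) (𝟙 A.base) rfl
      (by rw [Category.comp_id]; exact hnx)
    refine Eq.trans ?_ (h1.trans (Category.comp_id _))
    exact (PH.ofCocart (A := A) n hnc ψ).app_congr rfl (Category.comp_id n).symm _ _
  refine ⟨PH.ofCocart (A := A) n hnc ψ, hn, ?_, ?_⟩
  · refine PH.ext_of_cocart (by rw [PH.comp_base, hu]; exact congrArg (· ≫ t.base) hn)
      (n ≫ cocartLift (P := P) π adj M) hl (by rw [hlb, PH.comp_base]; exact congrArg (· ≫ π) hn.symm)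
      (fun hx hx' => ?_)
    rw [key _ hn ψ hnx hval hx, hω, hψ]
  · intro s' hs' hc
    have hnx' : n.base = s'.base ≫ 𝟙 A.base := by rw [hs', hn, Category.comp_id]
    obtain ⟨ψ', hψ'⟩ := s'.exists_ver n hnx'
    have hb : (n ≫ cocartLift (P := P) π adj M).base = (s'.comp t).base ≫ 𝟙 S := by
      rw [hlb, PH.comp_base, hs', htb, Category.comp_id]
    have h1 := key s' hs' ψ' hnx' hψ' hb
    have h2 : (s'.comp t).app (B := ⟨S, R.obj M⟩) (𝟙 S) (n ≫ cocartLift (P := P) π adj M) hb =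
        u.app (B := ⟨S, R.obj M⟩) (𝟙 S) (n ≫ cocartLift (P := P) π adj M) hub := by
      subst hc
      rfl
    rw [h1, hω] at h2
    have h3 : ψ' = ψ := (H M hM).1 (by
      dsimp only
      rw [hψ]
      exact ver_injective (P := P) h2)
    subst h3
    refine PH.ext_of_cocart (by rw [hs']; exact hn.symm) n hnc (by rw [hs', hn]) ?_
    intro hx hx'
    rw [hψ', hval]

/-! ### Arrows between restrictions -/

/-- `ε` is induced by `s` on the restrictions along `c'` and `c`. -/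
def IsOver {A' A A'₀ A₀ : Tot P} (s : PH A' A) (c' : A'₀ ⟶ A') (c : A₀ ⟶ A) (ε : A'₀ ⟶ A₀) : Prop :=
  ∀ {B : Tot P} (b : A.base ⟶ B.base) (x : A' ⟶ B) (hx : x.base = s.base ≫ b),
    ε ≫ c ≫ s.app b x hx = c' ≫ x

lemma IsOver.comp {A'' A' A A''₀ A'₀ A₀ : Tot P} {s' : PH A'' A'} {s : PH A' A} {c'' : A''₀ ⟶ A''}
    {c' : A'₀ ⟶ A'} {c : A₀ ⟶ A} {ε' : A''₀ ⟶ A'₀} {ε : A'₀ ⟶ A₀} (h' : IsOver s' c'' c' ε')
    (h : IsOver s c' c ε) : IsOver (s'.comp s) c'' c (ε' ≫ ε) := by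
  intro B b x hx
  rw [Category.assoc]
  have h1 := h b (s'.app (s.base ≫ b) x (by rw [hx, PH.comp_base, Category.assoc]))
    (s'.app_base _ _ _)
  have h2 := h' (s.base ≫ b) x (by rw [hx, PH.comp_base, Category.assoc])
  rw [← h2, ← h1]
  rfl

lemma IsOver.id {A A₀ : Tot P} (c : A₀ ⟶ A) : IsOver (PH.id A) c c (𝟙 A₀) := by
  intro B b x hx
  rw [Category.id_comp]
  rfl

/-- Over `k' : V ⟶ A'.base` the push morphism `s` is an isomorphism, and `g_* A'` is computed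
by restriction. -/
def LocIso {A' A : Tot P} (s : PH A' A) {V : 𝒮} (k' : V ⟶ A'.base) : Prop :=
  ∃ (N : D A.base) (m : A' ⟶ (⟨A.base, N⟩ : Tot P)) (hx : m.base = s.base ≫ 𝟙 A.base), IsCocart m ∧
    IsCart (cartLift A (k' ≫ s.base) ≫ s.app (B := ⟨A.base, N⟩) (𝟙 A.base) m hx) ∧
    IsCart (cartLift A' k' ≫ m)

section Over

variable {A' A A₀ : Tot P} {s : PH A' A} {V : 𝒮} {k' : V ⟶ A'.base} (hs : LocIso s k') {K' : D V}
  {c' : (⟨V, K'⟩ : Tot P) ⟶ A'} (hk' : c'.base = k') {c : A₀ ⟶ A} (hc : IsCart c)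
  {e : V ⟶ A₀.base} (he : e ≫ c.base = k' ≫ s.base)

include hs hc he in
/-- Uniqueness of the induced arrow. -/
lemma over_uniq {ε₁ ε₂ : (⟨V, K'⟩ : Tot P) ⟶ A₀} (h₁ : ε₁.base = e) (h₂ : ε₂.base = e)
    (o₁ : IsOver s c' c ε₁) (o₂ : IsOver s c' c ε₂) : ε₁ = ε₂ := by
  obtain ⟨N, m, hx, hm, h3, -⟩ := hs
  have hκ := isCart_cartLift A (k' ≫ s.base)
  obtain ⟨j₁, hj₁, hj₁'⟩ := hκ.lift (ε₁ ≫ c) (𝟙 V) (by
    rw [Tot.comp_base, h₁, he]; exact Category.id_comp _)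
  obtain ⟨j₂, hj₂, hj₂'⟩ := hκ.lift (ε₂ ≫ c) (𝟙 V) (by
    rw [Tot.comp_base, h₂, he]; exact Category.id_comp _)
  have hj : j₁ = j₂ := by
    refine h3.uniq (hj₁.trans hj₂.symm) ?_
    rw [reassoc_of% hj₁', reassoc_of% hj₂']
    rw [o₁ (B := ⟨A.base, N⟩) (𝟙 A.base) m hx, o₂ (B := ⟨A.base, N⟩) (𝟙 A.base) m hx]
  refine hc.uniq (h₁.trans h₂.symm) ?_
  rw [← hj₁', ← hj₂', hj]

include hs hk' hc he in
/-- Existence of the induced arrow. -/
lemma exists_over (hc' : IsCart c') :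
    ∃ ε : (⟨V, K'⟩ : Tot P) ⟶ A₀, ε.base = e ∧ IsCart ε ∧ IsOver s c' c ε := by
  obtain ⟨N, m, hx, hm, h3, h4⟩ := hs
  have hκ := isCart_cartLift A (k' ≫ s.base)
  -- `c' ≫ m` is cartesian
  have h5 : IsCart (c' ≫ m) := by
    obtain ⟨i, hi⟩ := (isCart_cartLift A' k').exists_iso hc' (by rw [hk']; rfl)
    rw [← hi, Category.assoc]
    exact ((isCart_ver_iff _).2 inferInstance).comp h4
  obtain ⟨i, hi⟩ := h3.exists_iso h5 (by
    rw [Tot.comp_base, Tot.comp_base, s.app_base, hx, hk']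
    simp)
  obtain ⟨ε, hε, hε'⟩ := hc.lift (ver i.hom ≫ cartLift A (k' ≫ s.base)) e (by
    rw [he, Tot.comp_base]
    exact (Category.id_comp _).symm)
  refine ⟨ε, hε, ?_, ?_⟩
  · have h6 : IsCart (ε ≫ c) := by
      rw [hε']
      exact ((isCart_ver_iff _).2 inferInstance).comp hκ
    exact (isCart_comp_iff hc).1 h6
  · have h7 : ε ≫ c ≫ s.app (B := ⟨A.base, N⟩) (𝟙 A.base) m hx = c' ≫ m := by
      rw [reassoc_of% hε']
      exact hi
    intro B b x hx'
    obtain ⟨y, hy, rfl⟩ := hm.desc x b (by rw [hx, hx', Category.comp_id])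
    rw [s.nat (B := ⟨A.base, N⟩) (𝟙 A.base) m hx y b hx' (by
      rw [hy]; exact (Category.id_comp _).symm), reassoc_of% h7]

end Over

end Groth.Agent.Dual.H324.PushHom
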