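import Groth.Agent.Dual.H324.Canon

/-!
# The calculus of roofs of charts

Abstract part of the construction of a canonical system: from good (dense) charts and the Ore type
conditions `Calc` one gets canonical cartesian arrows `can e : C'.obj ⟶ C.obj`, strictly
functorial.
-/

set_option autoImplicit false

universe v₁ u₁ v₂ u₂

open CategoryTheory

namespace Groth.Agent.Dual.H324.Canon

open Groth.Agent.PerfB.BCTot Groth.Agent.PerfB.BCTot.Tot Groth.Agent.Dual.H324.PushHom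

variable {𝒮 : Type u₁} [Category.{v₁} 𝒮] {D : 𝒮 → Type u₂} [∀ X, Category.{v₂} (D X)]
  {P : PullData D}

namespace Ch

/-- A cartesian arrow over an isomorphism is an isomorphism. -/
lemma isIso_of_isCart_of_isIso {A B : Tot P} {m : A ⟶ B} (hm : IsCart m) (h : IsIso m.base) :
    IsIso m := by
  have h1 : IsIso (inv m.base ≫ m.base) := by infer_instance
  obtain ⟨l, hl, hl'⟩ := hm.lift (𝟙 B) (inv m.base) (by
    rw [IsIso.inv_hom_id]; rfl)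
  refine ⟨l, hm.uniq ?_ ?_, hl'⟩
  · rw [Tot.comp_base, hl, IsIso.hom_inv_id]; rfl
  · rw [Category.assoc, hl', Category.comp_id, Category.id_comp]

/-- `e` is a morphism over the base of `𝒲`. -/
def Ov {𝒲 : Tot P} {Q : ∀ X : 𝒮, D X → Prop} (C' C : Ch 𝒲 Q) (e : C'.V ⟶ C.V) : Prop :=
  C'.c.base ≫ C'.t.base = e ≫ C.c.base ≫ C.t.base

/-- Hypotheses for the calculus of roofs. -/
structure Calc (𝒲 : Tot P) (Q : ∀ X : 𝒮, D X → Prop) where
  Geo : Ch 𝒲 Q → Prop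
  Dom : Ch 𝒲 Q → Prop
  O : ∀ {V' V : 𝒮}, (V' ⟶ V) → Prop
  dom_geo : ∀ {C : Ch 𝒲 Q}, Dom C → Geo C
  O_iso : ∀ {V' V : 𝒮} (e : V' ⟶ V), IsIso e → O e
  O_comp : ∀ {V'' V' V : 𝒮} (e' : V'' ⟶ V') (e : V' ⟶ V), O e' → O e → O (e' ≫ e)
  good : ∀ {R C : Ch 𝒲 Q}, Dom R → Geo C → ∀ G : R ⟶ C, O G.e → Good G
  ore : ∀ {Q₁ Q₂ C : Ch 𝒲 Q}, Dom Q₁ → Dom Q₂ → Geo C → ∀ (h : Q₁ ⟶ C) (G : Q₂ ⟶ C), O h.e →
    IsIso G.e → ∃ (R : Ch 𝒲 Q) (r : R ⟶ Q₁) (s : R ⟶ Q₂), Dom R ∧ IsIso r.e ∧ r ≫ h = s ≫ G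
  eq : ∀ {Q₁ C : Ch 𝒲 Q}, Dom Q₁ → Geo C → ∀ (G₁ G₂ : Q₁ ⟶ C), O G₁.e → G₁.e = G₂.e →
    ∃ (R : Ch 𝒲 Q) (r : R ⟶ Q₁), Dom R ∧ IsIso r.e ∧ r ≫ G₁ = r ≫ G₂
  roof : ∀ {C' C : Ch 𝒲 Q}, Geo C' → Geo C → ∀ e : C'.V ⟶ C.V, O e → Ov C' C e →
    ∃ (Q₁ : Ch 𝒲 Q) (G' : Q₁ ⟶ C') (G : Q₁ ⟶ C), Dom Q₁ ∧ IsIso G'.e ∧ G.e = G'.e ≫ e

variable {𝒲 : Tot P} {Q : ∀ X : 𝒮, D X → Prop} (H : Calc 𝒲 Q)

/-- A roof over `e`. -/
structure Roof (C' C : Ch 𝒲 Q) (e : C'.V ⟶ C.V) where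
  Q : Ch 𝒲 Q
  G' : Q ⟶ C'
  G : Q ⟶ C
  dom : H.Dom Q
  iso : IsIso G'.e
  he : G.e = G'.e ≫ e

namespace Roof

variable {H}

section

variable {C' C : Ch 𝒲 Q} {e : C'.V ⟶ C.V} (R : Roof H C' C e) (hC' : H.Geo C') (hC : H.Geo C)
  (he : H.O e)

include hC' in
lemma good' : Good R.G' := H.good R.dom hC' R.G' (H.O_iso _ R.iso)

include he in
lemma O_G : H.O R.G.e := by
  rw [R.he]
  exact H.O_comp _ _ (H.O_iso _ R.iso) he

include hC he in
lemma good : Good R.G := H.good R.dom hC R.G (R.O_G he)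

lemma isIso_eps : IsIso (eps (R.good' hC')) :=
  isIso_of_isCart_of_isIso (eps_cart _) (by rw [eps_base]; exact R.iso)

/-- The arrow defined by a roof. -/
noncomputable def arr : C'.obj ⟶ C.obj :=
  haveI := R.isIso_eps hC'
  inv (eps (R.good' hC')) ≫ eps (R.good hC he)

lemma eps_arr : eps (R.good' hC') ≫ R.arr hC' hC he = eps (R.good hC he) := by
  have := R.isIso_eps hC'
  exact IsIso.hom_inv_id_assoc _ _

lemma arr_base : (R.arr hC' hC he).base = e := by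
  have h := congrArg Tot.Hom.base (R.eps_arr hC' hC he)
  rw [Tot.comp_base, eps_base, eps_base, R.he] at h
  have := R.iso
  exact (cancel_epi R.G'.e).1 h

lemma arr_cart : IsCart (R.arr hC' hC he) := by
  have := R.isIso_eps hC'
  exact (isCart_of_isIso (inv (eps (R.good' hC')))).comp (eps_cart _)

end

/-- Independence of the roof. -/
theorem arr_eq {C' C : Ch 𝒲 Q} {e : C'.V ⟶ C.V} (R₁ R₂ : Roof H C' C e) (hC' : H.Geo C')
    (hC : H.Geo C) (he : H.O e) : R₁.arr hC' hC he = R₂.arr hC' hC he := by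
  have := R₁.iso
  have := R₂.iso
  obtain ⟨R, r, s, hR, hr, hrs⟩ := H.ore R₁.dom R₂.dom hC' R₁.G' R₂.G' (H.O_iso _ R₁.iso) R₂.iso
  have hrs' : r.e ≫ R₁.G'.e = s.e ≫ R₂.G'.e := congrArg Hom.e hrs
  have := hr
  have hs : IsIso s.e := by
    have h1 : s.e = (r.e ≫ R₁.G'.e) ≫ inv R₂.G'.e := by rw [hrs', Category.assoc, IsIso.hom_inv_id,
      Category.comp_id]
    rw [h1]; infer_instance
  obtain ⟨R', q, hR', hq, hq'⟩ := H.eq hR hC (r ≫ R₁.G) (s ≫ R₂.G)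
    (H.O_comp _ _ (H.O_iso _ hr) (R₁.O_G he)) (by
      rw [comp_e, comp_e, R₁.he, R₂.he, ← Category.assoc, ← Category.assoc, hrs'])
  have := hq
  have hq₁ : H.O (q ≫ r).e := H.O_iso _ (by rw [comp_e]; infer_instance)
  have hq₂ : H.O (q ≫ s).e := H.O_iso _ (by rw [comp_e]; infer_instance)
  have g₁ : Good (q ≫ r) := H.good hR' (H.dom_geo R₁.dom) _ hq₁
  have g₂ : Good (q ≫ s) := H.good hR' (H.dom_geo R₂.dom) _ hq₂
  have e₁ : (q ≫ r) ≫ R₁.G' = (q ≫ s) ≫ R₂.G' := by rw [Category.assoc, Category.assoc, hrs]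
  have e₂ : (q ≫ r) ≫ R₁.G = (q ≫ s) ≫ R₂.G := by rw [Category.assoc, Category.assoc, hq']
  have k₁ : Good ((q ≫ r) ≫ R₁.G') := H.good hR' hC' _ (H.O_comp _ _ hq₁ (H.O_iso _ R₁.iso))
  have k₂ : Good ((q ≫ s) ≫ R₂.G') := H.good hR' hC' _ (H.O_comp _ _ hq₂ (H.O_iso _ R₂.iso))
  have l₁ : Good ((q ≫ r) ≫ R₁.G) := H.good hR' hC _ (H.O_comp _ _ hq₁ (R₁.O_G he))
  have l₂ : Good ((q ≫ s) ≫ R₂.G) := H.good hR' hC _ (H.O_comp _ _ hq₂ (R₂.O_G he))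
  have i₁ : IsIso (eps k₁) := isIso_of_isCart_of_isIso (eps_cart _) (by
    rw [eps_base, comp_e, comp_e]; infer_instance)
  have f₁ := eps_comp g₁ (R₁.good' hC') k₁
  have f₂ := eps_comp g₂ (R₂.good' hC') k₂
  have f₃ := eps_comp g₁ (R₁.good hC he) l₁
  have f₄ := eps_comp g₂ (R₂.good hC he) l₂
  have f₅ : eps k₁ = eps k₂ := eps_congr e₁ k₁ k₂
  have f₆ : eps l₁ = eps l₂ := eps_congr e₂ l₁ l₂
  have h₁ : eps k₁ ≫ R₁.arr hC' hC he = eps l₁ := by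
    refine Eq.trans ?_ f₃
    refine (congrArg (· ≫ R₁.arr hC' hC he) f₁.symm).trans ?_
    exact (Category.assoc _ _ _).trans (congrArg (eps g₁ ≫ ·) (R₁.eps_arr hC' hC he))
  have h₂ : eps k₂ ≫ R₂.arr hC' hC he = eps l₂ := by
    refine Eq.trans ?_ f₄
    refine (congrArg (· ≫ R₂.arr hC' hC he) f₂.symm).trans ?_
    exact (Category.assoc _ _ _).trans (congrArg (eps g₂ ≫ ·) (R₂.eps_arr hC' hC he))
  exact (cancel_epi (eps k₁)).1 (h₁.trans (f₆.trans (h₂.symm.trans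
    (congrArg (· ≫ R₂.arr hC' hC he) f₅.symm))))

/-- Composition. -/
theorem arr_comp {C'' C' C : Ch 𝒲 Q} {e' : C''.V ⟶ C'.V} {e : C'.V ⟶ C.V}
    (R' : Roof H C'' C' e') (R : Roof H C' C e) (R'' : Roof H C'' C (e' ≫ e))
    (hC'' : H.Geo C'') (hC' : H.Geo C') (hC : H.Geo C) (he' : H.O e') (he : H.O e) :
    R'.arr hC'' hC' he' ≫ R.arr hC' hC he = R''.arr hC'' hC (H.O_comp _ _ he' he) := by
  have := R'.iso
  have := R.iso
  obtain ⟨T, r, s, hT, hr, hrs⟩ := H.ore R'.dom R.dom hC' R'.G R.G' (R'.O_G he') R.iso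
  have := hr
  have hrs' : r.e ≫ R'.G.e = s.e ≫ R.G'.e := congrArg Hom.e hrs
  have hs : H.O s.e := by
    have h1 : s.e = (r.e ≫ R'.G.e) ≫ inv R.G'.e := by rw [hrs', Category.assoc, IsIso.hom_inv_id,
      Category.comp_id]
    rw [h1]
    exact H.O_comp _ _ (H.O_comp _ _ (H.O_iso _ hr) (R'.O_G he')) (H.O_iso _ inferInstance)
  have g₁ : Good r := H.good hT (H.dom_geo R'.dom) r (H.O_iso _ hr)
  have g₂ : Good s := H.good hT (H.dom_geo R.dom) s hs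
  let N : Roof H C'' C (e' ≫ e) :=
    { Q := T
      G' := r ≫ R'.G'
      G := s ≫ R.G
      dom := hT
      iso := by rw [comp_e]; infer_instance
      he := by
        rw [comp_e, comp_e, R.he, ← Category.assoc, ← hrs', R'.he]
        simp only [Category.assoc] }
  rw [R''.arr_eq N]
  have k₁ : Good (r ≫ R'.G) := H.good hT hC' _ (H.O_comp _ _ (H.O_iso _ hr) (R'.O_G he'))
  have k₂ : Good (s ≫ R.G') := H.good hT hC' _ (H.O_comp _ _ hs (H.O_iso _ R.iso))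
  have i₁ : IsIso (eps (N.good' hC'')) := N.isIso_eps hC''
  have f₁ := eps_comp g₁ (R'.good' hC'') (N.good' hC'')
  have f₂ := eps_comp g₁ (R'.good hC' he') k₁
  have f₃ := eps_comp g₂ (R.good' hC') k₂
  have f₄ := eps_comp g₂ (R.good hC he) (N.good hC (H.O_comp _ _ he' he))
  have f₅ : eps k₁ = eps k₂ := eps_congr hrs k₁ k₂
  refine (cancel_epi (eps (N.good' hC''))).1 ?_
  rw [N.eps_arr, ← f₁, Category.assoc, ← Category.assoc (eps (R'.good' hC'')), R'.eps_arr,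
    ← Category.assoc, f₂, f₅, ← f₃, Category.assoc, R.eps_arr, f₄]

end Roof

section Can

variable {C'' C' C : Ch 𝒲 Q}

/-- The chosen roof. -/
noncomputable def aRoof (hC' : H.Geo C') (hC : H.Geo C) (e : C'.V ⟶ C.V) (he : H.O e)
    (ho : Ov C' C e) : Roof H C' C e :=
  { Q := (H.roof hC' hC e he ho).choose
    G' := (H.roof hC' hC e he ho).choose_spec.choose
    G := (H.roof hC' hC e he ho).choose_spec.choose_spec.choose
    dom := (H.roof hC' hC e he ho).choose_spec.choose_spec.choose_spec.1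
    iso := (H.roof hC' hC e he ho).choose_spec.choose_spec.choose_spec.2.1
    he := (H.roof hC' hC e he ho).choose_spec.choose_spec.choose_spec.2.2 }

/-- The canonical arrow. -/
noncomputable def can (hC' : H.Geo C') (hC : H.Geo C) (e : C'.V ⟶ C.V) (he : H.O e)
    (ho : Ov C' C e) : C'.obj ⟶ C.obj :=
  (aRoof H hC' hC e he ho).arr hC' hC he

lemma can_base (hC' : H.Geo C') (hC : H.Geo C) (e : C'.V ⟶ C.V) (he : H.O e) (ho : Ov C' C e) :
    (can H hC' hC e he ho).base = e := Roof.arr_base _ _ _ _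

lemma can_cart (hC' : H.Geo C') (hC : H.Geo C) (e : C'.V ⟶ C.V) (he : H.O e) (ho : Ov C' C e) :
    IsCart (can H hC' hC e he ho) := Roof.arr_cart _ _ _ _

lemma can_comp (hC'' : H.Geo C'') (hC' : H.Geo C') (hC : H.Geo C) (e' : C''.V ⟶ C'.V)
    (e : C'.V ⟶ C.V) (e'' : C''.V ⟶ C.V) (he' : H.O e') (he : H.O e) (he'' : H.O e'')
    (ho' : Ov C'' C' e') (ho : Ov C' C e) (ho'' : Ov C'' C e'') (h : e' ≫ e = e'') :
    can H hC'' hC' e' he' ho' ≫ can H hC' hC e he ho = can H hC'' hC e'' he'' ho'' := by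
  subst h
  exact Roof.arr_comp _ _ _ _ _ _ _ _

end Can

end Ch

end Groth.Agent.Dual.H324.Canon
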